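import Cfsg.Agent.H233.B3.CharChev
import Cfsg.Agent.H68.MeetBase

/-!
# S5761, assembly for p = 2 (helper233)
-/

set_option autoImplicit false

namespace Cfsg.Agent.H233.B3

open Cfsg Cfsg.Lie Cfsg.Agent.H903.SylMeet Cfsg.Agent.H68.MeetB

universe u

/-- a finite field has characteristic 2 or odd order -/
theorem char_cases (F : Type) [Field F] [Fintype F] : CharP F 2 ∨ Odd (Fintype.card F) := by
  obtain ⟨r, hr⟩ := CharP.exists F
  obtain ⟨n, hrp, hcard⟩ := FiniteField.card F r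
  rcases hrp.eq_two_or_odd' with h | h
  · subst h
    exact Or.inl hr
  · right
    rw [hcard]
    exact h.pow

/-- the rows of S5761 for p = 2 -/
structure Rows2 : Prop where
  alt : ∀ {n : ℕ}, 5 ≤ n → MeetIn 2 (alternatingGroup (Fin n)) → Row3 2 (alternatingGroup (Fin n))
  psl_even : ∀ {F : Type} [Field F] [Fintype F] [CharP F 2] {n : ℕ}, 2 ≤ n → (n = 2 → 4 ≤ Fintype.card F) →
    MeetIn 2 (Matrix.ProjectiveSpecialLinearGroup (Fin n) F) → Row3 2 (Matrix.ProjectiveSpecialLinearGroup (Fin n) F)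
  psl_odd : ∀ {F : Type} [Field F] [Fintype F] {n : ℕ}, 2 ≤ n → (n = 2 → 4 ≤ Fintype.card F) →
    Odd (Fintype.card F) → MeetIn 2 (Matrix.ProjectiveSpecialLinearGroup (Fin n) F) →
    Row3 2 (Matrix.ProjectiveSpecialLinearGroup (Fin n) F)
  psp_even : ∀ {F : Type} [Field F] [Fintype F] [CharP F 2] {m : ℕ}, 2 ≤ m → (m = 2 → 3 ≤ Fintype.card F) →
    MeetIn 2 (PSp m F) → Row3 2 (PSp m F)
  psp_odd : ∀ {F : Type} [Field F] [Fintype F] {m : ℕ}, 2 ≤ m → Odd (Fintype.card F) →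
    MeetIn 2 (PSp m F) → Row3 2 (PSp m F)
  psu_even : ∀ {F : Type} [Field F] [Fintype F] [CharP F 2] {n q : ℕ}, Fintype.card F = q ^ 2 → 3 ≤ n →
    ¬ (n = 3 ∧ q = 2) → MeetIn 2 (PSU n F q) → Row3 2 (PSU n F q)
  psu_odd : ∀ {F : Type} [Field F] [Fintype F] {n q : ℕ}, Fintype.card F = q ^ 2 → 3 ≤ n → Odd (Fintype.card F) →
    MeetIn 2 (PSU n F q) → Row3 2 (PSU n F q)
  omega_odd : ∀ {F : Type} [Field F] [Fintype F] {m : ℕ}, 3 ≤ m → Odd (Fintype.card F) →
    MeetIn 2 (POmega F (quadFormOdd m F)) → Row3 2 (POmega F (quadFormOdd m F))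
  plus_even : ∀ {F : Type} [Field F] [Fintype F] [CharP F 2] {m : ℕ}, 4 ≤ m →
    MeetIn 2 (POmega F (quadFormPlus m F)) → Row3 2 (POmega F (quadFormPlus m F))
  plus_odd : ∀ {F : Type} [Field F] [Fintype F] {m : ℕ}, 4 ≤ m → Odd (Fintype.card F) →
    MeetIn 2 (POmega F (quadFormPlus m F)) → Row3 2 (POmega F (quadFormPlus m F))
  minus_even : ∀ {F : Type} [Field F] [Fintype F] [CharP F 2] {m : ℕ}, 4 ≤ m → ∀ {a b : F},
    (∀ z₁ z₂ : F, z₁ ^ 2 + a * z₁ * z₂ + b * z₂ ^ 2 = 0 → z₁ = 0 ∧ z₂ = 0) →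
    MeetIn 2 (POmega F (quadFormMinus (m - 1) F a b)) → Row3 2 (POmega F (quadFormMinus (m - 1) F a b))
  minus_odd : ∀ {F : Type} [Field F] [Fintype F] {m : ℕ}, 4 ≤ m → Odd (Fintype.card F) → ∀ {a b : F},
    (∀ z₁ z₂ : F, z₁ ^ 2 + a * z₁ * z₂ + b * z₂ ^ 2 = 0 → z₁ = 0 ∧ z₂ = 0) →
    MeetIn 2 (POmega F (quadFormMinus (m - 1) F a b)) → Row3 2 (POmega F (quadFormMinus (m - 1) F a b))
  g2_three : ∀ {F : Type} [Field F] [Fintype F], Odd (Fintype.card F) → MeetIn 2 (chevG2.group F) → Row3 2 (chevG2.group F)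
  f4 : ∀ {F : Type} [Field F] [Fintype F], Odd (Fintype.card F) → MeetIn 2 (chevF4.group F) → Row3 2 (chevF4.group F)
  e6 : ∀ {F : Type} [Field F] [Fintype F], Odd (Fintype.card F) → MeetIn 2 (chevE6.group F) → Row3 2 (chevE6.group F)
  e7 : ∀ {F : Type} [Field F] [Fintype F], Odd (Fintype.card F) → MeetIn 2 (chevE7.group F) → Row3 2 (chevE7.group F)
  e8 : ∀ {F : Type} [Field F] [Fintype F], Odd (Fintype.card F) → MeetIn 2 (chevE8.group F) → Row3 2 (chevE8.group F)
  twE6_even : ∀ {K : Type} [Field K] [Fintype K] {q : ℕ}, IsPrimePow q → Fintype.card K = q ^ 2 → 2 ∣ q →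
    MeetIn 2 (twistedE6 K q) → Row3 2 (twistedE6 K q)
  twE6_odd : ∀ {K : Type} [Field K] [Fintype K] {q : ℕ}, IsPrimePow q → Fintype.card K = q ^ 2 → ¬ 2 ∣ q →
    MeetIn 2 (twistedE6 K q) → Row3 2 (twistedE6 K q)
  twD4_even : ∀ {K : Type} [Field K] [Fintype K] {q : ℕ}, IsPrimePow q → Fintype.card K = q ^ 3 → 2 ∣ q →
    MeetIn 2 (twistedD4 K q) → Row3 2 (twistedD4 K q)
  twD4_odd : ∀ {K : Type} [Field K] [Fintype K] {q : ℕ}, IsPrimePow q → Fintype.card K = q ^ 3 → ¬ 2 ∣ q →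
    MeetIn 2 (twistedD4 K q) → Row3 2 (twistedD4 K q)
  sz : ∀ {T : Type u} [Group T] [Finite T] [IsSimpleGroup T], ¬ IsMulCommutative T → IsoSuzuki T → MeetIn 2 T → Row3 2 T
  ree : ∀ {T : Type u} [Group T] [Finite T] [IsSimpleGroup T], ¬ IsMulCommutative T → IsoRee T → MeetIn 2 T → Row3 2 T
  ree2 : ∀ {T : Type u} [Group T] [Finite T] [IsSimpleGroup T], ¬ IsMulCommutative T → Iso2F4 T → MeetIn 2 T → Row3 2 T
  tits : ∀ {T : Type u} [Group T] [Finite T] [IsSimpleGroup T], ¬ IsMulCommutative T → IsoTits T → MeetIn 2 T → Row3 2 T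
  spor : ∀ {T : Type u} [Group T] [Finite T] [IsSimpleGroup T], ¬ IsMulCommutative T → IsSporadicGroup T →
    MeetIn 2 T → Row3 2 T

/-- **All known simple groups, p = 2.** -/
theorem row2_known (R : Rows2.{u}) {T : Type u} [Group T] [Finite T] [IsSimpleGroup T] (hT : ¬ IsMulCommutative T)
    (hM : MeetIn 2 T) (h : IsKnownSimple' T) : Row3 2 T := by
  rcases h with h | h | h | h | h | h | h | h | h | h
  · exfalso
    apply hT
    haveI : Fact (Nat.card T).Prime := ⟨h⟩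
    haveI := isCyclic_of_prime_card (α := T) rfl
    exact ⟨⟨fun a b => (IsCyclic.commGroup (α := T)).mul_comm a b⟩⟩
  · obtain ⟨n, hn, ⟨e⟩⟩ := h
    exact Row3.congr e.symm (R.alt hn (hM.congr e))
  · obtain ⟨F, _, _, n, hn, h2, ⟨e⟩⟩ := h
    refine Row3.congr e.symm ?_
    rcases char_cases F with hc | hc
    · exact R.psl_even hn h2 (hM.congr e)
    · exact R.psl_odd hn h2 hc (hM.congr e)
  · obtain ⟨F, _, _, m, hm, h2, ⟨e⟩⟩ := h
    refine Row3.congr e.symm ?_
    rcases char_cases F with hc | hc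
    · exact R.psp_even hm h2 (hM.congr e)
    · exact R.psp_odd hm hc (hM.congr e)
  · obtain ⟨F, _, _, n, q, hF, hn, h2, ⟨e⟩⟩ := h
    refine Row3.congr e.symm ?_
    rcases char_cases F with hc | hc
    · exact R.psu_even hF hn h2 (hM.congr e)
    · exact R.psu_odd hF hn hc (hM.congr e)
  · obtain ⟨F, _, _, m, hm, ho, ⟨e⟩⟩ := h
    exact Row3.congr e.symm (R.omega_odd hm ho (hM.congr e))
  · obtain ⟨F, _, _, m, hm, ⟨e⟩⟩ := h
    refine Row3.congr e.symm ?_
    rcases char_cases F with hc | hc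
    · exact R.plus_even hm (hM.congr e)
    · exact R.plus_odd hm hc (hM.congr e)
  · obtain ⟨F, _, _, m, a, b, hm, hab, ⟨e⟩⟩ := h
    refine Row3.congr e.symm ?_
    rcases char_cases F with hc | hc
    · exact R.minus_even hm hab (hM.congr e)
    · exact R.minus_odd hm hc hab (hM.congr e)
  · rcases h with h | h | h | h | h | h | h | h | h | h | h
    · obtain ⟨F, _, _, hF, ⟨e⟩⟩ := h
      refine Row3.congr e.symm ?_
      rcases char_cases F with hc | hc
      · refine row2_chev chevG2 (by simp) fun _ => ?_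
        obtain ⟨f, -, hF2⟩ := FiniteField.card F 2
        have h1 : (f : ℕ) ≠ 1 := by
          intro h1
          rw [hF2, h1] at hF
          norm_num at hF
        have h2 : 2 ≤ (f : ℕ) := by
          have := f.pos
          omega
        rw [hF2]
        exact (by norm_num : 4 = 2 ^ 2).le.trans (Nat.pow_le_pow_right (by norm_num) h2)
      · exact R.g2_three hc (hM.congr e)
    · obtain ⟨F, _, _, ⟨e⟩⟩ := h
      refine Row3.congr e.symm ?_
      rcases char_cases F with hc | hc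
      · exact row2_chev chevF4 (by simp) fun h => absurd (congrArg ChevalleyDatum.nroots h) (by decide +kernel)
      · exact R.f4 hc (hM.congr e)
    · obtain ⟨F, _, _, ⟨e⟩⟩ := h
      refine Row3.congr e.symm ?_
      rcases char_cases F with hc | hc
      · exact row2_chev chevE6 (by simp) fun h => absurd (congrArg ChevalleyDatum.nroots h) (by decide +kernel)
      · exact R.e6 hc (hM.congr e)
    · obtain ⟨F, _, _, ⟨e⟩⟩ := h
      refine Row3.congr e.symm ?_
      rcases char_cases F with hc | hc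
      · exact row2_chev chevE7 (by simp) fun h => absurd (congrArg ChevalleyDatum.nroots h) (by decide +kernel)
      · exact R.e7 hc (hM.congr e)
    · obtain ⟨F, _, _, ⟨e⟩⟩ := h
      refine Row3.congr e.symm ?_
      rcases char_cases F with hc | hc
      · exact row2_chev chevE8 (by simp) fun h => absurd (congrArg ChevalleyDatum.nroots h) (by decide +kernel)
      · exact R.e8 hc (hM.congr e)
    · obtain ⟨K, _, _, q, hq, hK, ⟨e⟩⟩ := h
      refine Row3.congr e.symm ?_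
      by_cases hd : 2 ∣ q
      · exact R.twE6_even hq hK hd (hM.congr e)
      · exact R.twE6_odd hq hK hd (hM.congr e)
    · obtain ⟨K, _, _, q, hq, hK, ⟨e⟩⟩ := h
      refine Row3.congr e.symm ?_
      by_cases hd : 2 ∣ q
      · exact R.twD4_even hq hK hd (hM.congr e)
      · exact R.twD4_odd hq hK hd (hM.congr e)
    · exact R.sz hT h hM
    · exact R.ree hT h hM
    · exact R.ree2 hT h hM
    · exact R.tits hT h hM
  · exact R.spor hT h hM

end Cfsg.Agent.H233.B3
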