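import Cfsg.Agent.H233.B3.Row2

/-!
# Tools for the rows `Row3 2 T` of S5761, third part (helper233)

* `row3_of_odd_out` : `|Out T|` odd;
* `lt_index_of_dvd` : a lower bound for the index of a 2-subgroup;
* `row3_of_hom_cyclic` : `Out T → C` with odd kernel, `C` cyclic;
* `row3_of_minIndex` : numbers (`2 |Out T| |T|_2 < m`, `m` a lower bound for the index of proper subgroups);
* `row3_of_frame` : defining characteristic, `|Out T|` divides `2 m |Γ|`.
-/

set_option autoImplicit false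

namespace Cfsg.Agent.H233.B3

open Subgroup Cfsg.Agent.H903.SylMeet

variable {T : Type*} [Group T]

/-- the map `P ∩ P ^ x → Out T` is injective -/
theorem injective_DD {P : Subgroup (MulAut T)} {x : T}
    (hx : ∀ y ∈ DD P x, y ∈ (MulAut.conj : T →* MulAut T).range → y = 1) :
    Function.Injective ((QuotientGroup.mk' (Cfsg.Inn T)).comp (DD P x).subtype) := by
  rw [injective_iff_map_eq_one]
  intro y hy
  have h1 : (y : MulAut T) ∈ (MulAut.conj : T →* MulAut T).range := (QuotientGroup.eq_one_iff _).1 hy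
  exact Subtype.ext (hx _ y.2 h1)

/-- `|Out T|` odd. -/
theorem row3_of_odd_out [Finite T] [IsSimpleGroup T] (hT : ¬ IsMulCommutative T)
    (h : ∀ R : Subgroup T, IsPGroup 2 R → ∃ x : T, ∀ y ∈ R, x * y * x⁻¹ ∈ R → y = 1)
    (ho : Odd (Nat.card (Cfsg.Out T))) : Row3 2 T := by
  intro P hP
  obtain ⟨x, hx⟩ := exists_of_meetIn hT h hP
  have hDp : IsPGroup 2 (DD P x) := hP.to_le inf_le_left
  have hF : Fact (Nat.Prime 2) := ⟨Nat.prime_two⟩
  obtain ⟨a, ha⟩ := hDp.exists_card_eq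
  have h1 := Subgroup.card_dvd_of_injective _ (injective_DD hx)
  have h2 : Nat.card (DD P x) ≤ 2 := by
    rw [ha] at h1 ⊢
    rcases Nat.eq_zero_or_pos a with h0 | h0
    · rw [h0]; norm_num
    · exfalso
      have h3 : 2 ∣ Nat.card (Cfsg.Out T) := (dvd_pow_self 2 h0.ne').trans h1
      obtain ⟨k, hk⟩ := ho
      omega
  exact g3_of_two hT hP x h2

/-- An odd divisor of `|T|` divides the index of a 2-subgroup. -/
theorem lt_index_of_dvd [Finite T] {m k : ℕ} (hm : Odd m) (hd : m ∣ Nat.card T) (hk : k < m) {Q : Subgroup T}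
    (hQ : IsPGroup 2 Q) : k < Q.index := by
  have hF : Fact (Nat.Prime 2) := ⟨Nat.prime_two⟩
  obtain ⟨a, ha⟩ := hQ.exists_card_eq
  have h1 := Subgroup.index_mul_card Q
  rw [ha] at h1
  have h2 : m ∣ Q.index := by
    rw [← h1] at hd
    exact (Nat.Coprime.pow_right a (Nat.coprime_two_right.2 hm)).dvd_of_dvd_mul_right hd
  exact lt_of_lt_of_le hk (Nat.le_of_dvd (Nat.pos_of_ne_zero Subgroup.index_ne_zero_of_finite) h2)

/-- `Out T → C` with kernel of odd order and `C` cyclic (multiplicatively written), `3 |C| < |T|_{2'}`. -/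
theorem row3_of_hom_cyclic [Finite T] [IsSimpleGroup T] (hT : ¬ IsMulCommutative T)
    (h : ∀ R : Subgroup T, IsPGroup 2 R → ∃ x : T, ∀ y ∈ R, x * y * x⁻¹ ∈ R → y = 1)
    {C : Type*} [Group C] [Finite C] [IsCyclic C] (φ : Cfsg.Out T →* C) (hk : Odd (Nat.card φ.ker))
    (hn : Nat.card C ≤ 4 ∨ ∀ Q : Subgroup T, IsPGroup 2 Q → 3 * Nat.card C < Q.index) : Row3 2 T := by
  intro P hP
  obtain ⟨x, hx⟩ := exists_of_meetIn hT h hP
  have hDp : IsPGroup 2 (DD P x) := hP.to_le inf_le_left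
  let ψ : DD P x →* C := φ.comp ((QuotientGroup.mk' (Cfsg.Inn T)).comp (DD P x).subtype)
  have hψ : Function.Injective ψ := by
    rw [injective_iff_map_eq_one]
    intro y hy
    have h1 : (QuotientGroup.mk' (Cfsg.Inn T)).comp (DD P x).subtype y ∈ φ.ker := hy
    obtain ⟨n, hn⟩ := hDp y
    have h2 : ((QuotientGroup.mk' (Cfsg.Inn T)).comp (DD P x).subtype y) ^ 2 ^ n = 1 := by
      rw [← map_pow, hn, map_one]
    have h3 : orderOf ((QuotientGroup.mk' (Cfsg.Inn T)).comp (DD P x).subtype y) ∣ Nat.card φ.ker := by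
      have := orderOf_dvd_natCard (⟨_, h1⟩ : φ.ker)
      rwa [← Subgroup.orderOf_coe] at this
    have h4 : Nat.Coprime (2 ^ n) (Nat.card φ.ker) := Nat.Coprime.pow_left _ (Nat.coprime_two_left.2 hk)
    have h5 := orderOf_eq_one_iff.1 (Nat.eq_one_of_dvd_coprimes h4 (orderOf_dvd_of_pow_eq_one h2) h3)
    exact injective_DD hx (by rw [h5, map_one])
  have hone : ∀ y ∈ DD P x, ∀ y' ∈ DD P x, y * y = 1 → y' * y' = 1 → y ≠ 1 → y' ≠ 1 → y = y' := by
    intro y hy y' hy' h1 h1' h2 h2'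
    have key : ∀ z : DD P x, z * z = 1 → z ≠ 1 → orderOf (ψ z) = 2 := by
      intro z hz hz1
      rw [orderOf_injective ψ hψ]
      exact orderOf_eq_prime (by rw [pow_two]; exact hz) hz1
    have k1 := key ⟨y, hy⟩ (Subtype.ext h1) (fun e => h2 (congrArg Subtype.val e))
    have k2 := key ⟨y', hy'⟩ (Subtype.ext h1') (fun e => h2' (congrArg Subtype.val e))
    have h3 : ψ ⟨y, hy⟩ = ψ ⟨y', hy'⟩ := by
      have hF : Fact (Nat.Prime 2) := ⟨Nat.prime_two⟩
      obtain ⟨e1, e2⟩ := (orderOf_eq_prime_iff (p := 2)).1 k1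
      obtain ⟨e3, e4⟩ := (orderOf_eq_prime_iff (p := 2)).1 k2
      obtain ⟨k, hk⟩ := mem_zpowers_of_cyclic (p := 2) _ _ e1 e2 e3
      rcases Int.even_or_odd' k with ⟨j, rfl | rfl⟩
      · exfalso
        apply e4
        rw [← hk, zpow_mul]
        have : ψ ⟨y, hy⟩ ^ (2 : ℤ) = 1 := by exact_mod_cast e1
        rw [this, one_zpow]
      · rw [zpow_add, zpow_mul, zpow_one] at hk
        have : ψ ⟨y, hy⟩ ^ (2 : ℤ) = 1 := by exact_mod_cast e1
        rw [this, one_zpow, one_mul] at hk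
        exact hk
    exact congrArg Subtype.val (hψ h3)
  have hcard : Nat.card (DD P x) ≤ Nat.card C := Nat.card_le_card_of_injective ψ hψ
  rcases hn with hn | hn
  · exact g3_of_four hT hP x hone (hcard.trans hn)
  · exact g3_of_one hT hP x hone (lt_of_le_of_lt (Nat.mul_le_mul_left 3 hcard) (hn _ (inn_pgroup hT hP)))

/-- The conjugates of `P` containing `y ≠ 1`, when all proper subgroups of `T` have index at least `m`. -/
theorem card_bad_minIndex [Finite T] {P : Subgroup (MulAut T)} {m : ℕ}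
    (hm : ∀ H : Subgroup T, H ≠ ⊤ → m ≤ H.index) {y : MulAut T} (hy : y ∈ P) (hy1 : y ≠ 1) :
    m * Nat.card {z : T // MulAut.conj z * y * (MulAut.conj z)⁻¹ ∈ P} ≤ Nat.card (inn P) * Nat.card T := by
  classical
  let C : Subgroup T :=
    { carrier := {t | y t = t}
      mul_mem' := fun {a b} ha hb => by
        change y (a * b) = a * b
        rw [map_mul, show y a = a from ha, show y b = b from hb]
      one_mem' := map_one y
      inv_mem' := fun {a} ha => by
        change y a⁻¹ = a⁻¹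
        rw [map_inv, show y a = a from ha] }
  have hC : C ≠ ⊤ := by
    intro h
    apply hy1
    ext t
    have : t ∈ C := by rw [h]; trivial
    exact this
  have hCm := hm C hC
  have hc := Subgroup.index_mul_card C
  -- `Bad → P₀ × C`
  have hmem : ∀ z : {z : T // MulAut.conj z * y * (MulAut.conj z)⁻¹ ∈ P}, (z : T) * (y z)⁻¹ ∈ inn P := by
    rintro ⟨z, hz⟩
    rw [conj_mul_mul_inv] at hz
    have := mul_mem hz (inv_mem hy)
    rwa [mul_assoc, mul_inv_cancel, mul_one] at this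
  -- a section
  have hsec : ∀ u : inn P, ∃ s : T, ∀ z : {z : T // MulAut.conj z * y * (MulAut.conj z)⁻¹ ∈ P},
      (z : T) * (y z)⁻¹ = u → s * (y s)⁻¹ = u := by
    intro u
    by_cases hex : ∃ z : {z : T // MulAut.conj z * y * (MulAut.conj z)⁻¹ ∈ P}, (z : T) * (y z)⁻¹ = u
    · obtain ⟨z, hz⟩ := hex
      exact ⟨z, fun _ _ => hz⟩
    · exact ⟨1, fun z hz => absurd ⟨z, hz⟩ hex⟩
  choose s hs using hsec
  have hb : Nat.card {z : T // MulAut.conj z * y * (MulAut.conj z)⁻¹ ∈ P} ≤ Nat.card (inn P) * Nat.card C := by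
    rw [← Nat.card_prod]
    have hCm' : ∀ z : {z : T // MulAut.conj z * y * (MulAut.conj z)⁻¹ ∈ P}, (s ⟨_, hmem z⟩)⁻¹ * (z : T) ∈ C := by
      intro z
      have h1' : s ⟨_, hmem z⟩ * (y (s ⟨_, hmem z⟩))⁻¹ = (z : T) * (y z)⁻¹ := hs ⟨_, hmem z⟩ z rfl
      change y ((s ⟨_, hmem z⟩)⁻¹ * (z : T)) = (s ⟨_, hmem z⟩)⁻¹ * (z : T)
      generalize s ⟨_, hmem z⟩ = w at h1'
      rw [map_mul, map_inv]
      have h2 : (y w)⁻¹ = w⁻¹ * ((z : T) * (y z)⁻¹) := by
        rw [← h1']; group
      rw [h2]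
      group
    refine Nat.card_le_card_of_injective (fun z => (⟨_, hmem z⟩, ⟨_, hCm' z⟩)) ?_
    intro z z' e
    have e1 : (⟨_, hmem z⟩ : inn P) = ⟨_, hmem z'⟩ := congrArg Prod.fst e
    have e2 : (s ⟨_, hmem z⟩)⁻¹ * (z : T) = (s ⟨_, hmem z'⟩)⁻¹ * (z' : T) :=
      congrArg (fun w : C => (w : T)) (congrArg Prod.snd e)
    rw [e1] at e2
    exact Subtype.ext (mul_left_cancel e2)
  calc m * Nat.card {z : T // MulAut.conj z * y * (MulAut.conj z)⁻¹ ∈ P}
      ≤ C.index * (Nat.card (inn P) * Nat.card C) := Nat.mul_le_mul hCm hb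
    _ = Nat.card (inn P) * (C.index * Nat.card C) := by ring
    _ = _ := by rw [hc]

/-- **Numbers.** -/
theorem row3_of_minIndex [Finite T] [IsSimpleGroup T] (hT : ¬ IsMulCommutative T)
    (h : ∀ R : Subgroup T, IsPGroup 2 R → ∃ x : T, ∀ y ∈ R, x * y * x⁻¹ ∈ R → y = 1) {m : ℕ}
    (hm : ∀ H : Subgroup T, H ≠ ⊤ → m ≤ H.index)
    (hn : ∀ Q : Subgroup T, IsPGroup 2 Q → 2 * (Nat.card (Cfsg.Out T) * Nat.card Q) < m) : Row3 2 T := by
  classical
  intro P hP
  obtain ⟨x, hx⟩ := exists_of_meetIn hT h hP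
  have hDp : IsPGroup 2 (DD P x) := hP.to_le inf_le_left
  have hcard : Nat.card (DD P x) ≤ Nat.card (Cfsg.Out T) :=
    Nat.card_le_card_of_injective _ (injective_DD hx)
  have hm2 : 2 * (Nat.card (DD P x) * Nat.card (inn P)) < m :=
    lt_of_le_of_lt (Nat.mul_le_mul_left 2 (Nat.mul_le_mul_right _ hcard)) (hn _ (inn_pgroup hT hP))
  -- `2 m ≤ |T|`
  have hT2 : 2 * m ≤ Nat.card T := by
    have : Nontrivial T := IsSimpleGroup.toNontrivial
    obtain ⟨g, hg⟩ := exists_ne (1 : T)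
    have h1 : zpowers g ≠ ⊤ := by
      intro h0
      apply hT
      exact ⟨⟨fun a b => by
        have ha : a ∈ zpowers g := by rw [h0]; trivial
        have hb : b ∈ zpowers g := by rw [h0]; trivial
        obtain ⟨i, rfl⟩ := mem_zpowers_iff.1 ha
        obtain ⟨j, rfl⟩ := mem_zpowers_iff.1 hb
        rw [← zpow_add, ← zpow_add, add_comm]⟩⟩
    have h2 := hm _ h1
    have h3 : 2 ≤ Nat.card (zpowers g) := by
      have h4 : Nat.card (zpowers g) ≠ 1 := by
        rw [Nat.card_zpowers, Ne, orderOf_eq_one_iff]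
        exact hg
      have : 0 < Nat.card (zpowers g) := Nat.card_pos
      omega
    calc 2 * m ≤ Nat.card (zpowers g) * (zpowers g).index := Nat.mul_le_mul h3 h2
      _ = _ := Subgroup.card_mul_index _
  apply g3_of_count x
  have _ : Fintype T := Fintype.ofFinite T
  have _ : Fintype (MulAut T) := Fintype.ofFinite _
  let D := DD P x
  let Good : Finset T := Finset.univ.filter fun z => ∀ y ∈ D, MulAut.conj z * y * (MulAut.conj z)⁻¹ ∈ P → y = 1
  let Bad : MulAut T → Finset T := fun y => Finset.univ.filter fun z => MulAut.conj z * y * (MulAut.conj z)⁻¹ ∈ P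
  have hGood : Nat.card {z : T // ∀ y ∈ DD P x, MulAut.conj z * y * (MulAut.conj z)⁻¹ ∈ P → y = 1} = Good.card := by
    rw [Nat.card_eq_fintype_card, Fintype.card_subtype]
  have hBad : ∀ y ∈ D, y ≠ 1 → m * (Bad y).card ≤ Nat.card (inn P) * Nat.card T := by
    intro y hy hy1
    have h1 := card_bad_minIndex hm hy.1 hy1
    rwa [Nat.card_eq_fintype_card (α := {z : T // MulAut.conj z * y * (MulAut.conj z)⁻¹ ∈ P}),
      Fintype.card_subtype] at h1
  let E : Finset (MulAut T) := Finset.univ.filter fun y => y ∈ D ∧ y ≠ 1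
  have hcover : (Finset.univ : Finset T) ⊆ Good ∪ E.biUnion Bad := by
    intro z _
    by_cases hz : z ∈ Good
    · exact Finset.mem_union_left _ hz
    · apply Finset.mem_union_right
      have h1 : ¬ ∀ y ∈ D, MulAut.conj z * y * (MulAut.conj z)⁻¹ ∈ P → y = 1 := by
        intro h2
        exact hz (Finset.mem_filter.2 ⟨Finset.mem_univ _, h2⟩)
      push Not at h1
      obtain ⟨y, hy, hyz, hy1⟩ := h1
      rw [Finset.mem_biUnion]
      exact ⟨y, Finset.mem_filter.2 ⟨Finset.mem_univ _, hy, hy1⟩, Finset.mem_filter.2 ⟨Finset.mem_univ _, hyz⟩⟩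
  have hEc : E.card ≤ Nat.card D := by
    rw [Nat.card_eq_fintype_card, Fintype.card_subtype]
    apply Finset.card_le_card
    intro y hy
    exact Finset.mem_filter.2 ⟨Finset.mem_univ _, (Finset.mem_filter.1 hy).2.1⟩
  have h1 : Nat.card T ≤ Good.card + (E.biUnion Bad).card := by
    rw [Nat.card_eq_fintype_card, ← Finset.card_univ]
    exact (Finset.card_le_card hcover).trans (Finset.card_union_le _ _)
  have h2 : m * (E.biUnion Bad).card ≤ Nat.card D * (Nat.card (inn P) * Nat.card T) := by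
    calc m * (E.biUnion Bad).card ≤ m * ∑ y ∈ E, (Bad y).card := Nat.mul_le_mul_left _ Finset.card_biUnion_le
      _ = ∑ y ∈ E, m * (Bad y).card := Finset.mul_sum _ _ _
      _ ≤ ∑ _y ∈ E, Nat.card (inn P) * Nat.card T :=
        Finset.sum_le_sum fun y hy => hBad y (Finset.mem_filter.1 hy).2.1 (Finset.mem_filter.1 hy).2.2
      _ = E.card * (Nat.card (inn P) * Nat.card T) := by rw [Finset.sum_const, smul_eq_mul]
      _ ≤ _ := Nat.mul_le_mul_right _ hEc
  rw [hGood]
  change 2 * (Nat.card D * Nat.card (inn P)) < Good.card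
  have hm2' : 2 * (Nat.card D * Nat.card (inn P)) < m := hm2
  set k := Nat.card D * Nat.card (inn P) with hk
  have h3 : m * (E.biUnion Bad).card ≤ k * Nat.card T := by
    rw [hk, mul_assoc]
    exact h2
  by_contra hcon
  push Not at hcon
  have h5 : 2 * (E.biUnion Bad).card < Nat.card T ∨ (E.biUnion Bad).card = 0 := by
    by_cases h0 : (E.biUnion Bad).card = 0
    · exact Or.inr h0
    · left
      have hpos : 0 < m := by omega
      have h6 : m * (2 * (E.biUnion Bad).card) < m * Nat.card T := by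
        have hTpos : 0 < Nat.card T := Nat.card_pos
        calc m * (2 * (E.biUnion Bad).card) = 2 * (m * (E.biUnion Bad).card) := by ring
          _ ≤ 2 * (k * Nat.card T) := Nat.mul_le_mul_left 2 h3
          _ = (2 * k) * Nat.card T := by ring
          _ < m * Nat.card T := Nat.mul_lt_mul_of_pos_right hm2' hTpos
      exact Nat.lt_of_mul_lt_mul_left h6
  rcases h5 with h5 | h5 <;> omega

end Cfsg.Agent.H233.B3
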